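import Mathlib
import Cfsg.Agent.Sym.Sylow

/-!
# Abelian Sylow subgroups of symmetric groups: translations and the inverting involution
-/

set_option autoImplicit false

namespace Cfsg.Agent.Sym

open Subgroup Equiv Equiv.Perm MulAction
open scoped Pointwise

theorem two_dvd_index_centralizer_subgroupOf {G : Type*} [Group G] {s : Set G} {t : G}
    (h1 : t ∈ normalizer s) (h2 : t ∉ centralizer s) (h3 : t * t = 1) :
    2 ∣ ((centralizer s).subgroupOf (normalizer s)).index := by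
  have h : orderOf ((⟨t, h1⟩ : normalizer s) :
      normalizer s ⧸ (centralizer s).subgroupOf (normalizer s)) = 2 :=
    orderOf_eq_prime (by
      rw [← QuotientGroup.mk_pow, QuotientGroup.eq_one_iff, mem_subgroupOf]
      simpa [pow_two, h3] using one_mem _) (by rwa [ne_eq, QuotientGroup.eq_one_iff])
  exact h ▸ orderOf_dvd_natCard _

variable {α β : Type*} [DecidableEq α] [Fintype α] [Fintype β]

omit [DecidableEq α] in
/-- For `n < p ^ 2` a Sylow `p`-subgroup of `Sₙ` is the group of translations. -/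
theorem exists_eq_wr_bot {p : ℕ} [hp : Fact p.Prime] (hβ : Fintype.card β = Fintype.card α / p)
    (h : Fintype.card α < p ^ 2) (P : Sylow p (Perm α)) :
    ∃ ι : β × ZMod p ↪ α, (P : Subgroup (Perm α)) = wr ι ⊥ := by
  classical
  obtain ⟨Q⟩ : Nonempty (Sylow p (Perm β)) := inferInstance
  obtain ⟨ι, hι⟩ := exists_eq_wr hβ P Q
  refine ⟨ι, hι.trans (congrArg _ (card_eq_one.1 ?_))⟩
  rw [Q.card_eq_multiplicity, Nat.factorization_eq_zero_of_not_dvd, pow_zero]
  rw [Nat.card_perm, hp.out.dvd_factorial, not_le, Nat.card_eq_fintype_card, hβ]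
  exact Nat.div_lt_of_lt_mul (by rwa [← pow_two])

section Neg

variable {A : Type*} [AddCommGroup A] (ι : β × A ↪ α)

/-- The permutation `(i, s) ↦ (σ i, -s)`. -/
noncomputable def wrNeg (σ : Perm β) : Perm α := viaEmbedding (prodCongr σ (Equiv.neg A)) ι

omit [DecidableEq α] [Fintype α] [Fintype β]

theorem wrNeg_apply (σ : Perm β) (i : β) (s : A) : wrNeg ι σ (ι (i, s)) = ι (σ i, -s) :=
  viaEmbedding_apply _ _ _

theorem wrNeg_mul_wrNeg (σ τ : Perm β) : wrNeg ι σ * wrNeg ι τ = wrEmb ι (σ * τ) 0 := by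
  refine eq_wrEmb_of_apply ι (fun i s => by simp [wrNeg_apply]) fun x hx => ?_
  simp [wrNeg, viaEmbedding_apply_of_notMem _ _ _ hx]

theorem wrNeg_mul_wrEmb (σ : Perm β) (v : β → A) :
    wrNeg ι σ * wrEmb ι 1 v = wrEmb ι 1 (-v ∘ ⇑σ⁻¹) * wrNeg ι σ := by
  ext x
  by_cases hx : x ∈ Set.range ι
  · obtain ⟨⟨i, s⟩, rfl⟩ := hx
    simp [wrNeg_apply, wrEmb_apply, add_comm]
  · simp [wrNeg, viaEmbedding_apply_of_notMem _ _ _ hx, wrEmb_apply_of_not_mem _ _ _ hx]

theorem wrNeg_eq_mul (σ : Perm β) : wrNeg ι σ = wrEmb ι σ 0 * wrNeg ι 1 := by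
  ext x
  by_cases hx : x ∈ Set.range ι
  · obtain ⟨⟨i, s⟩, rfl⟩ := hx
    simp [wrNeg_apply, wrEmb_apply]
  · simp [wrNeg, viaEmbedding_apply_of_notMem _ _ _ hx, wrEmb_apply_of_not_mem _ _ _ hx]

theorem wrNeg_mem_normalizer [Finite α] (σ : Perm β) :
    wrNeg ι σ ∈ normalizer (wr ι ⊥ : Set (Perm α)) := by
  refine mem_normalizer_fintype ?_
  rintro _ ⟨_, rfl, v, rfl⟩
  rw [wrNeg_mul_wrEmb, mul_inv_cancel_right]
  exact wrEmb_mem_wr.2 (one_mem _)

theorem wrNeg_not_mem_centralizer [Nonempty β] {a : A} (ha : -a ≠ a) (σ : Perm β) :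
    wrNeg ι σ ∉ centralizer (wr ι ⊥ : Set (Perm α)) := fun h => by
  have h1 := h _ (wrEmb_mem_wr.2 (one_mem _) : wrEmb ι 1 (fun _ => a) ∈ _)
  rw [wrNeg_mul_wrEmb, mul_left_inj] at h1
  exact ha (congrFun (wrEmb_inj ι h1).2 (Classical.arbitrary β)).symm

end Neg

theorem neg_one_ne_one_zmod {p : ℕ} [hp : Fact p.Prime] (h2 : p ≠ 2) : (-1 : ZMod p) ≠ 1 :=
  haveI : Fact (2 < p) := ⟨lt_of_le_of_ne hp.out.two_le h2.symm⟩
  ZMod.neg_one_ne_one

end Cfsg.Agent.Sym
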