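import Mathlib

/-!
# The largest prime divisor of a binomial coefficient
-/

set_option autoImplicit false

namespace Cfsg.Agent.Sym.CP

open Finset

theorem pow_le_pow_mul_choose : ∀ (r m : ℕ), r ≤ m → m ^ r ≤ r ^ r * m.choose r
  | 0, m, _ => by simp
  | r + 1, 0, h => by omega
  | r + 1, m + 1, h => by
    have ih := pow_le_pow_mul_choose r m (by omega)
    have h1 : (m + 1) * m.choose r = (m + 1).choose (r + 1) * (r + 1) := Nat.add_one_mul_choose_eq m r
    have h2 : ((m + 1) * r) ^ r ≤ ((r + 1) * m) ^ r := Nat.pow_le_pow_left (by nlinarith) r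
    have h3 : 0 < r ^ r := by
      rcases r with _ | r
      · simp
      · positivity
    have h4 : (m + 1) ^ r ≤ (r + 1) ^ r * m.choose r := by
      refine Nat.le_of_mul_le_mul_right ?_ h3
      rw [mul_pow, mul_pow] at h2
      calc _ ≤ (r + 1) ^ r * m ^ r := h2
        _ ≤ (r + 1) ^ r * (r ^ r * m.choose r) := Nat.mul_le_mul_left _ ih
        _ = _ := by ring
    calc (m + 1) ^ (r + 1) = (m + 1) ^ r * (m + 1) := pow_succ _ _
      _ ≤ (r + 1) ^ r * m.choose r * (m + 1) := Nat.mul_le_mul_right _ h4
      _ = (r + 1) ^ r * ((m + 1) * m.choose r) := by ring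
      _ = _ := by rw [h1]; ring

theorem choose_le_of_le {m r k : ℕ} (h1 : r ≤ k) (h2 : 2 * k ≤ m) : m.choose r ≤ m.choose k := by
  induction k, h1 using Nat.le_induction with
  | base => rfl
  | succ k _ ih => exact (ih (by omega)).trans (Nat.choose_le_succ_of_lt_half_left (by omega))

theorem choose_le_pow_card {m k r : ℕ} (hk : k ≤ m) (hm : 0 < m)
    (hmax : ∀ s : ℕ, s.Prime → s ∣ m.choose k → s ≤ r) :
    m.choose k ≤ m ^ ((range (r + 1)).filter Nat.Prime).card := by
  have h0 : m.choose k ≠ 0 := (Nat.choose_pos hk).ne'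
  calc m.choose k = ∏ p ∈ (m.choose k).primeFactors, p ^ (m.choose k).factorization p :=
        (Nat.prod_factorization_pow_eq_self h0).symm
    _ ≤ m ^ (m.choose k).primeFactors.card :=
        prod_le_pow_card _ _ _ fun p _ => Nat.pow_factorization_choose_le hm
    _ ≤ _ := Nat.pow_le_pow_right hm (card_le_card fun p hp => by
        have := Nat.mem_primeFactors.1 hp
        exact mem_filter.2 ⟨mem_range.2 (Nat.lt_succ_of_le (hmax p this.1 this.2.1)), this.1⟩)

theorem card_primes_le {t : ℕ} (ht : 4 ≤ t) :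
    ((range (2 * t + 1 + 1)).filter Nat.Prime).card ≤ t := by
  have : ((range (2 * t + 1 + 1)).filter Nat.Prime).card ≤ (Icc 1 t).card := by
    refine card_le_card_of_injOn (fun p => if p = 2 then 4 else p / 2) ?_ ?_
    · intro p hp
      simp only [coe_filter, mem_range, Set.mem_ofPred_eq] at hp
      have := hp.2.two_le
      simp only [coe_Icc, Set.mem_Icc]
      split_ifs <;> omega
    · intro p hp q hq h
      simp only [coe_filter, mem_range, Set.mem_ofPred_eq] at hp hq
      have h1 := hp.2.eq_two_or_odd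
      have h2 := hq.2.eq_two_or_odd
      have h3 : p ≠ 9 := fun e => by simpa [e] using (show ¬ Nat.Prime 9 by norm_num) (e ▸ hp.2)
      have h4 : q ≠ 9 := fun e => by simpa [e] using (show ¬ Nat.Prime 9 by norm_num) (e ▸ hq.2)
      simp only at h
      split_ifs at h <;> omega
  simpa using this

theorem lt_or_lt {m k r : ℕ} (hr : r.Prime) (hm : 5 ≤ m) (hk : 2 * k ≤ m)
    (hmax : ∀ s : ℕ, s.Prime → s ∣ m.choose k → s ≤ r) : k < r ∨ m < r * r := by
  by_contra hc
  push Not at hc
  obtain ⟨h1, h2⟩ := hc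
  have h3 := (choose_le_of_le h1 hk).trans (choose_le_pow_card (by omega) (by omega) hmax)
  have h4 := (pow_le_pow_mul_choose r m (by omega)).trans (Nat.mul_le_mul_left _ h3)
  have h5 := Nat.mul_le_mul_left r.factorial h3
  rw [← Nat.descFactorial_eq_factorial_mul_choose] at h5
  by_cases h9 : 9 ≤ r
  · obtain ⟨t, rfl⟩ : ∃ t, r = 2 * t + 1 := ⟨r / 2, by have := hr.eq_two_or_odd; omega⟩
    have h6 := h4.trans (Nat.mul_le_mul_left _
      (Nat.pow_le_pow_right (by omega) (card_primes_le (t := t) (by omega))))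
    have h7 := Nat.pow_le_pow_left h6 2
    have h8 : ((2 * t + 1) * (2 * t + 1)) ^ (2 * t + 1) ≤ m ^ (2 * t + 1) :=
      Nat.pow_le_pow_left h2 _
    have h10 : m ^ (4 * t + 2) ≤ m ^ (4 * t + 1) :=
      calc m ^ (4 * t + 2) = (m ^ (2 * t + 1)) ^ 2 := by ring
        _ ≤ _ := h7
        _ = ((2 * t + 1) * (2 * t + 1)) ^ (2 * t + 1) * m ^ (2 * t) := by
          rw [mul_pow, mul_pow, ← pow_mul m t 2, mul_comm t 2, sq]
        _ ≤ m ^ (2 * t + 1) * m ^ (2 * t) := Nat.mul_le_mul_right _ h8
        _ = _ := by ring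
    have := (Nat.pow_le_pow_iff_right (by omega)).1 h10
    omega
  have hm0 : 0 < m := by omega
  have h2r := hr.two_le
  interval_cases r
  · rw [show ((range (2 + 1)).filter Nat.Prime).card = 1 by decide] at h4
    nlinarith
  · rw [show ((range (3 + 1)).filter Nat.Prime).card = 2 by decide] at h4 h5
    have h6 : m ≤ 27 := Nat.le_of_mul_le_mul_right (c := m ^ 2) (by nlinarith) (by positivity)
    exact absurd h5 (by revert h2; revert h6; generalize m = j; revert j; decide)
  · exact absurd hr (by norm_num)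
  · rw [show ((range (5 + 1)).filter Nat.Prime).card = 3 by decide] at h4 h5
    have h6 : m ^ 2 ≤ 3125 :=
      Nat.le_of_mul_le_mul_right (c := m ^ 3) (by nlinarith) (by positivity)
    have h7 : m ≤ 55 := by nlinarith
    exact absurd h5 (by revert h2; revert h7; generalize m = j; revert j; decide)
  · exact absurd hr (by norm_num)
  · rw [show ((range (7 + 1)).filter Nat.Prime).card = 4 by decide] at h4 h5
    have h6 : m ^ 3 ≤ 823543 :=
      Nat.le_of_mul_le_mul_right (c := m ^ 4) (by nlinarith) (by positivity)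
    have h7 : m ≤ 93 := by
      by_contra h8
      have := Nat.pow_le_pow_left (show 94 ≤ m by omega) 3
      omega
    exact absurd h5 (by revert h2; revert h7; generalize m = j; revert j; decide)
  · exact absurd hr (by norm_num)

/-- The largest prime divisor of `m.choose k` produces a carry in the last digit. -/
theorem mod_lt_mod {m k r : ℕ} (hr : r.Prime) (hm : 5 ≤ m) (hk : 2 * k ≤ m) (hd : r ∣ m.choose k)
    (hmax : ∀ s : ℕ, s.Prime → s ∣ m.choose k → s ≤ r) :
    m % r < k % r ∧ (r = 2 → 4 ∣ m) := by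
  have := Fact.mk hr
  have h0 := lt_or_lt hr hm hk hmax
  constructor
  · by_contra hc
    have h1 : r ∣ (m % r).choose (k % r) * (m / r).choose (k / r) :=
      (Nat.modEq_zero_iff_dvd.1 ((Choose.choose_modEq_choose_mod_mul_choose_div_nat
        (p := r)).symm.trans (Nat.modEq_zero_iff_dvd.2 hd)))
    have key : ∀ a b : ℕ, a < r → b ≤ a → ¬ r ∣ a.choose b := fun a b ha hb h => by
      have h2 := Nat.factorization_choose_eq_zero_of_lt (k := b) ha
      have h3 := (hr.dvd_iff_one_le_factorization (Nat.choose_pos hb).ne').1 h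
      omega
    rcases (Nat.Prime.dvd_mul hr).1 h1 with h | h
    · exact key _ _ (Nat.mod_lt _ hr.pos) (by omega) h
    · rcases h0 with h0 | h0
      · rw [Nat.div_eq_of_lt h0, Nat.choose_zero_right] at h
        exact hr.one_lt.ne' (Nat.dvd_one.1 h)
      · exact key _ _ ((Nat.div_lt_iff_lt_mul hr.pos).2 h0) (Nat.div_le_div_right (by omega)) h
  · rintro rfl
    have h1 : k < 2 := by omega
    interval_cases k
    · simp at hd
    · rw [Nat.choose_one_right] at hmax
      have h2 := Nat.eq_prime_pow_of_unique_prime_dvd (n := m) (p := 2) (by omega)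
        fun {d} h3 h4 => le_antisymm (hmax d h3 h4) h3.two_le
      generalize m.primeFactorsList.length = a at h2
      subst h2
      rcases a with _ | _ | a
      · omega
      · omega
      · exact ⟨2 ^ a, by ring⟩

end Cfsg.Agent.Sym.CP
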